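import Cfsg.Agent.BpSpor.MBigEleven

/-!
# S3509, row M: definitions (helper349)
-/

set_option autoImplicit false
open Cfsg

namespace Cfsg.Agent.H349.RM

open Cfsg.Agent.BpSpor.MBigModel (MG)

/-- `x` commutes with an involution -/
def EvI (x : MG) : Prop := ∃ t : MG, orderOf t = 2 ∧ t * x = x * t

theorem evI_iff {x : MG} : EvI x ↔ ∃ t : MG, orderOf t = 2 ∧ t * x = x * t := Iff.rfl

end Cfsg.Agent.H349.RM
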