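import Cfsg.Agent.H345.RG.Fpr
import Cfsg.Agent.H368.RC.CB
import Cfsg.Agent.H147.Gen.Base
import Cfsg.Agent.H349.RM.Defs

/-!
# S3509, row M: the fixed point ratios (helper349)

`MG` is the Monster; `hd : MinDeg MG 196883`.

* `fpr_char` : the character bound, `fpr x ≤ 1 / 196884 + q` if `|C(x)| ≤ (196883 q) ^ 2`;
* `fpr_gen` : ten conjugates of `x` generate: `fpr x ≤ 8501 / 10000` for `x` of order 3;
* `no_cov` : the sum of the bounds.
-/

set_option autoImplicit false
open Cfsg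

namespace Cfsg.Agent.H349.RM

open MulAction Subgroup Cfsg.Agent.H106.RC Cfsg.Agent.H345.RG Cfsg.Agent.H514.DP
open Cfsg.Agent.BpSpor.MBigModel (MG)

theorem perfect_m : commutator MG = ⊤ := by
  have hsim : IsSimpleGroup MG := BpSpor.MBigModel.simple
  refine H368.RC.perfect_of_simple hsim fun hc => ?_
  have h1 := BpSpor.MBigModel.card_cent_z
  have h2 : centralizer ({BpSpor.MBigModel.zz} : Set MG) = ⊤ := by
    rw [eq_top_iff]
    intro g _
    exact mem_centralizer_singleton_iff.2 (hc.is_comm.comm g _)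
  rw [h2, card_top, BpSpor.MBigModel.card_M] at h1
  norm_num at h1

theorem minIx (hd : MinDeg MG 196883) : MinIx MG 196884 := by
  have hfin : Finite MG := BpSpor.MBigModel.finite
  intro H hH
  exact H917.FP.index_ge perfect_m hd hH

section Om

variable {Ω : Type} [Finite Ω] [Nonempty Ω] [MulAction MG Ω]

/-- the character bound -/
theorem fpr_char (hd : MinDeg MG 196883) (hE : Env MG Ω (⊤ : Subgroup MG)) {x : MG} {c : ℕ}
    (hc : Nat.card ↥(centralizer ({x} : Set MG)) ≤ c) {q : ℚ} (hq : 0 ≤ q) (hcq : (c : ℚ) ≤ (196883 * q) ^ 2) :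
    fpr Ω x ≤ 1 / 196884 + q := by
  have hfin : Finite MG := BpSpor.MBigModel.finite
  have h1 := H368.RC.card_fix_le (Ω := Ω) (⊤ : Subgroup MG) (H368.RC.perfect_surj perfect_m
    (Subgroup.topEquiv (G := MG)).symm.toMonoidHom (Subgroup.topEquiv (G := MG)).symm.surjective) (by norm_num : 0 < 196883)
    (H368.RC.minDeg_surj hd (Subgroup.topEquiv (G := MG)).symm.toMonoidHom (Subgroup.topEquiv (G := MG)).symm.surjective)
    hE.nofix x
  have hn : (0 : ℝ) < Nat.card Ω := by exact_mod_cast (Nat.card_pos : 0 < Nat.card Ω)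
  have hcq' : (c : ℝ) ≤ (196883 * (q : ℝ)) ^ 2 := by exact_mod_cast hcq
  have hq' : (0 : ℝ) ≤ q := by exact_mod_cast hq
  have h2 : √(Nat.card (Subgroup.centralizer ({x} : Set MG)) : ℝ) ≤ 196883 * (q : ℝ) := by
    refine Real.sqrt_le_iff.2 ⟨by positivity, ?_⟩
    refine le_trans ?_ hcq'
    exact_mod_cast hc
  have h3 : (Nat.card (fixedBy Ω x) : ℝ) ≤ (1 / 196884 + (q : ℝ)) * Nat.card Ω := by
    refine h1.trans (mul_le_mul_of_nonneg_right ?_ hn.le)
    have h4 : √(Nat.card (Subgroup.centralizer ({x} : Set MG)) : ℝ) / ((196883 : ℕ) : ℝ) ≤ q := by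
      rw [div_le_iff₀ (by norm_num)]
      push_cast
      linarith
    have h5 : (1 : ℝ) / (((196883 : ℕ) : ℝ) + 1) = 1 / 196884 := by norm_num
    rw [h5]
    linarith
  have h4 : ((fpr Ω x : ℚ) : ℝ) ≤ ((1 / 196884 + q : ℚ) : ℝ) := by
    rw [fpr]
    push_cast
    rw [div_le_iff₀ hn]
    exact h3
  exact_mod_cast h4

/-- ten conjugates generate -/
theorem fpr_gen (hd : MinDeg MG 196883) (hE : Env MG Ω (⊤ : Subgroup MG)) {x : MG} (hx : x ^ 3 = 1) (hx1 : x ≠ 1)
    (hg : H147.Gen.CG 10 x) : fpr Ω x ≤ 8501 / 10000 := by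
  have hfin : Finite MG := BpSpor.MBigModel.finite
  obtain ⟨f, hf⟩ := hg
  have h1 : Gen x (List.ofFn f) = ⊤ := by
    rw [Gen, ← hf]
    congr 1
    ext y
    simp only [List.mem_ofFn, Set.mem_ofPred_eq, Set.mem_range]
    constructor
    · rintro ⟨c, ⟨i, rfl⟩, rfl⟩
      exact ⟨i, rfl⟩
    · rintro ⟨i, rfl⟩
      exact ⟨f i, ⟨i, rfl⟩, rfl⟩
  have h2 := Cfsg.Agent.H345.RG.F2 (Ω := Ω) (N := (⊤ : Subgroup MG)) (m := 196884) (by norm_num) ((minIx hd).big hE)
    (p := 3) (by norm_num) hx hx1 (List.ofFn f) (by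
      intro h
      have h3 := congrArg List.length h
      rw [List.length_ofFn] at h3
      simp at h3) (by rw [h1])
  rw [List.length_ofFn] at h2
  refine h2.trans ?_
  norm_num

end Om

/-- the bounds -/
def bet (p : ℕ) : ℚ := if p = 3 then 8501 / 10000 else if p = 5 then 1160 / 10000 else if p = 7 then 177 / 10000 else
  53 / 10000

theorem bet_nonneg (p : ℕ) : 0 ≤ bet p := by
  unfold bet
  split_ifs <;> norm_num

/-- the sum of the bounds -/
theorem sum_bet {ι : Type} [Fintype ι] {r : ι → ℕ} (hr : Function.Injective r)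
    (hb : ∀ i, r i = 3 ∨ r i = 5 ∨ r i = 7 ∨ 11 ≤ r i) (h1 : ∀ i j, 11 ≤ r i → 11 ≤ r j → r i = r j) :
    ∑ i, bet (r i) < 1 := by
  classical
  have h2 : ∑ i, bet (r i) = ∑ p ∈ Finset.univ.image r, bet p :=
    (Finset.sum_image fun a _ b _ h => hr h).symm
  rw [h2]
  have key : ∃ q : ℕ, 11 ≤ q ∧ Finset.univ.image r ⊆ {3, 5, 7, q} := by
    by_cases h : ∃ i, 11 ≤ r i
    · obtain ⟨i, hi⟩ := h
      refine ⟨r i, hi, fun p hp => ?_⟩
      obtain ⟨j, -, rfl⟩ := Finset.mem_image.1 hp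
      simp only [Finset.mem_insert, Finset.mem_singleton]
      rcases hb j with h | h | h | h
      · exact Or.inl h
      · exact Or.inr (Or.inl h)
      · exact Or.inr (Or.inr (Or.inl h))
      · exact Or.inr (Or.inr (Or.inr (h1 j i h hi)))
    · push Not at h
      refine ⟨11, le_rfl, fun p hp => ?_⟩
      obtain ⟨j, -, rfl⟩ := Finset.mem_image.1 hp
      simp only [Finset.mem_insert, Finset.mem_singleton]
      rcases hb j with h' | h' | h' | h'
      · exact Or.inl h'
      · exact Or.inr (Or.inl h')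
      · exact Or.inr (Or.inr (Or.inl h'))
      · exact absurd h' (not_le.2 (h j))
  obtain ⟨q, hq, hs⟩ := key
  refine (Finset.sum_le_sum_of_subset_of_nonneg hs fun p _ _ => bet_nonneg p).trans_lt ?_
  rw [Finset.sum_insert (by simp; omega), Finset.sum_insert (by simp; omega), Finset.sum_insert (by simp; omega),
    Finset.sum_singleton]
  have h3 : bet 3 = 8501 / 10000 := by norm_num [bet]
  have h5 : bet 5 = 1160 / 10000 := by norm_num [bet]
  have h7 : bet 7 = 177 / 10000 := by norm_num [bet]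
  have h8 : bet q = 53 / 10000 := by
    rw [bet, if_neg (by omega), if_neg (by omega), if_neg (by omega)]
  rw [h3, h5, h7, h8]
  norm_num

/-- **no cover by elements of these orders** -/
theorem no_cov (hd : MinDeg MG 196883) (hcg : ∀ x : MG, x ≠ 1 → H147.Gen.CG 10 x)
    (n5 : ∀ x : MG, orderOf x = 5 → ¬ EvI x → Nat.card ↥(centralizer ({x} : Set MG)) ≤ 520000000)
    (n7 : ∀ x : MG, orderOf x = 7 → ¬ EvI x → Nat.card ↥(centralizer ({x} : Set MG)) ≤ 12000000)
    (big : ∀ (p : ℕ) (x : MG), p.Prime → 11 ≤ p → orderOf x = p → Nat.card ↥(centralizer ({x} : Set MG)) ≤ 1045440)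
    (big1 : ∀ (p q : ℕ) (x y : MG), p.Prime → q.Prime → 11 ≤ p → 11 ≤ q → orderOf x = p → orderOf y = q →
      x * y = y * x → p = q)
    {Ω ι : Type} [Finite Ω] [Nonempty Ω] [MulAction MG Ω] [Finite ι] (hE : Env MG Ω (⊤ : Subgroup MG))
    {x : ι → MG} {r : ι → ℕ} (hx : PF x r) (hc : Cov Ω x) (h2 : ∀ i, r i ≠ 2) (h5 : ∀ i, r i = 5 → ¬ EvI (x i))
    (h7 : ∀ i, r i = 7 → ¬ EvI (x i)) : False := by
  classical
  have : Fintype ι := Fintype.ofFinite ι
  have hord : ∀ i, orderOf (x i) = r i := by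
    intro i
    have := Fact.mk (hx.prime i)
    exact orderOf_eq_prime (hx.pow i) (hx.ne i)
  have hcases : ∀ i, r i = 3 ∨ r i = 5 ∨ r i = 7 ∨ 11 ≤ r i := by
    intro i
    have hp := hx.prime i
    have h2' := h2 i
    by_contra hcon
    push Not at hcon
    obtain ⟨h3, h5, h7, h11⟩ := hcon
    generalize r i = n at hp h2' h3 h5 h7 h11
    interval_cases n <;>
      first | exact h2' rfl | exact h3 rfl | exact h5 rfl | exact h7 rfl | (revert hp; norm_num)
  refine dead_of_sum hc (fun i => bet (r i)) (fun i => ?_) (sum_bet hx.inj hcases fun i j hi hj =>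
    big1 _ _ _ _ (hx.prime i) (hx.prime j) hi hj (hord i) (hord j) (hx.comm i j))
  rcases hcases i with h | h | h | h
  · rw [h]
    have h3 : bet 3 = 8501 / 10000 := by norm_num [bet]
    rw [h3]
    exact fpr_gen hd hE (by rw [← h, hx.pow]) (hx.ne i) (hcg _ (hx.ne i))
  · rw [h]
    have h3 : bet 5 = 1160 / 10000 := by norm_num [bet]
    rw [h3]
    refine (fpr_char hd hE (n5 _ (by rw [hord, h]) (h5 i h)) (q := 1159 / 10000) (by norm_num) (by norm_num)).trans ?_
    norm_num
  · rw [h]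
    have h3 : bet 7 = 177 / 10000 := by norm_num [bet]
    rw [h3]
    refine (fpr_char hd hE (n7 _ (by rw [hord, h]) (h7 i h)) (q := 176 / 10000) (by norm_num) (by norm_num)).trans ?_
    norm_num
  · have h8 : bet (r i) = 53 / 10000 := by
      rw [bet, if_neg (by omega), if_neg (by omega), if_neg (by omega)]
    rw [h8]
    refine (fpr_char hd hE (big _ _ (hx.prime i) h (hord i)) (q := 52 / 10000) (by norm_num) (by norm_num)).trans ?_
    norm_num

end Cfsg.Agent.H349.RM
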